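import Cfsg.Agent.Lib.Helper22.AG.Defs

/-!
# S3072 (AG): package [CCISO]

Chain-connectedness of the Sylow `p`-subgroups is invariant under isomorphism.
-/

set_option autoImplicit false

namespace Cfsg.Agent.Lib.Helper77.AG

open Cfsg Cfsg.Agent.Lib.Helper22.AG

universe u

/-- [CCISO] -/
theorem pkgCCIso : PkgCCIso.{u} := by
  intro K K' _ _ _ _ p _ e h S' T'
  have hr : ∀ P : Sylow p K', (P : Subgroup K') ≤ e.toMonoidHom.range := by
    intro P
    rw [MonoidHom.range_eq_top.2 e.surjective]
    exact le_top
  have hr' : ∀ P : Sylow p K, (P : Subgroup K) ≤ e.symm.toMonoidHom.range := by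
    intro P
    rw [MonoidHom.range_eq_top.2 e.symm.surjective]
    exact le_top
  let F : Sylow p K' → Sylow p K := fun P => P.comapOfInjective e.toMonoidHom e.injective (hr P)
  let F' : Sylow p K → Sylow p K' := fun P =>
    P.comapOfInjective e.symm.toMonoidHom e.symm.injective (hr' P)
  have hF : ∀ P : Sylow p K', ((F P : Sylow p K) : Subgroup K) =
      (P : Subgroup K').comap e.toMonoidHom := fun P => rfl
  have hF' : ∀ P : Sylow p K, ((F' P : Sylow p K') : Subgroup K') =
      (P : Subgroup K).comap e.symm.toMonoidHom := fun P => rfl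
  have hFF' : ∀ P : Sylow p K', F' (F P) = P := by
    intro P
    apply Sylow.ext
    rw [hF', hF, Subgroup.comap_comap]
    ext x
    simp
  have hinj : Function.Injective (fun A : Subgroup K => A.comap e.symm.toMonoidHom) :=
    Subgroup.comap_injective e.symm.surjective
  obtain ⟨n, c, h0, hl, hin, hc⟩ := h (F S') (F T')
  refine ⟨n, fun i => F' (c i), ?_, ?_, ?_, ?_⟩
  · show F' (c 0) = S'
    rw [h0, hFF']
  · show F' (c (Fin.last n)) = T'
    rw [hl, hFF']
  · intro i
    have h1 := Subgroup.comap_mono (f := e.symm.toMonoidHom) (hin i)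
    have h2 : ((F S' : Sylow p K) : Subgroup K) ⊓ ((F T' : Sylow p K) : Subgroup K) =
        ((S' : Subgroup K') ⊓ (T' : Subgroup K')).comap e.toMonoidHom := by
      rw [hF, hF, Subgroup.comap_inf]
    rw [h2, Subgroup.comap_comap] at h1
    have h3 : ((S' : Subgroup K') ⊓ (T' : Subgroup K')).comap
        (e.toMonoidHom.comp e.symm.toMonoidHom) = (S' : Subgroup K') ⊓ (T' : Subgroup K') := by
      ext x
      simp
    rw [h3] at h1
    exact h1
  · intro i
    obtain ⟨hne, hbot⟩ := hc i
    refine ⟨?_, ?_⟩
    · intro heq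
      apply hne
      apply Sylow.ext
      apply hinj
      have := congrArg (fun P : Sylow p K' => (P : Subgroup K')) heq
      exact this
    · intro hb
      apply hbot
      apply hinj
      show ((c i.castSucc : Subgroup K) ⊓ (c i.succ : Subgroup K)).comap e.symm.toMonoidHom =
        (⊥ : Subgroup K).comap e.symm.toMonoidHom
      rw [Subgroup.comap_inf]
      rw [hF', hF'] at hb
      rw [hb]
      ext x
      rw [Subgroup.mem_bot, Subgroup.mem_comap, Subgroup.mem_bot]
      exact (map_eq_one_iff _ e.symm.injective).symm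

end Cfsg.Agent.Lib.Helper77.AG
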